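import Mathlib

/-!
# S3849, piece EIG (helper750): elements whose eigenvalues contain no full coset of `μ_r`

`A` is a commutative subgroup, `|A| ≠ 0` in the field, `z` normalises `A` and `z ^ r ^ m` centralises `A`. If the
eigenvalues of `z` (over an algebraic closure) contain no full coset `c μ_r`, then `z` centralises `A`.
-/

set_option autoImplicit false

namespace Cfsg.Agent.H750.RM

open Module Polynomial

section core

variable {k : Type*} [Field k] [IsAlgClosed k]

/-- an eigenvector for an operator of finite order which does not fix `t` -/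
theorem exists_eig_of_ne {W : Type*} [AddCommGroup W] [Module k W] (Φ : W →ₗ[k] W) (U : Submodule k W)
    (hU : ∀ u ∈ U, Φ u ∈ U) {n : ℕ} (hn : (n : k) ≠ 0) {t : W} (ht : t ∈ U) (hΦ : (Φ ^ n) t = t) (hne : Φ t ≠ t) :
    ∃ η : k, η ≠ 1 ∧ η ^ n = 1 ∧ ∃ s ∈ U, s ≠ 0 ∧ Φ s = η • s := by
  have : NeZero (n : k) := ⟨hn⟩
  have hn0 : n ≠ 0 := by
    rintro rfl
    exact hn (by simp)
  have : NeZero n := ⟨hn0⟩
  obtain ⟨ζ, hζ⟩ := HasEnoughRootsOfUnity.exists_primitiveRoot k n
  have hζ0 : ζ ≠ 0 := hζ.ne_zero hn0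
  have hpow : ∀ i, ∀ u ∈ U, (Φ ^ i) u ∈ U := by
    intro i
    induction i with
    | zero => intro u hu; simpa using hu
    | succ i ih =>
      intro u hu
      rw [pow_succ', Module.End.mul_apply]
      exact hU _ (ih u hu)
  -- the eigenvectors
  set s : ℕ → W := fun j => ∑ i ∈ Finset.range n, ((ζ ^ j)⁻¹) ^ i • (Φ ^ i) t with hs
  have hsU : ∀ j, s j ∈ U := fun j => U.sum_mem fun i _ => U.smul_mem _ (hpow i t ht)
  have hseig : ∀ j, Φ (s j) = (ζ ^ j) • s j := by
    intro j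
    have hj0 : (ζ ^ j) ≠ 0 := pow_ne_zero _ hζ0
    have hjn : ((ζ ^ j)⁻¹) ^ n = 1 := by
      rw [inv_pow, ← pow_mul, mul_comm, pow_mul, hζ.pow_eq_one, one_pow, inv_one]
    have e1 : Φ (s j) = (ζ ^ j) • ∑ i ∈ Finset.range n, ((ζ ^ j)⁻¹) ^ (i + 1) • (Φ ^ (i + 1)) t := by
      rw [hs]
      beta_reduce
      rw [map_sum, Finset.smul_sum]
      refine Finset.sum_congr rfl fun i _ => ?_
      rw [map_smul, pow_succ' Φ, Module.End.mul_apply, smul_smul]
      congr 1
      rw [pow_succ, mul_comm, mul_assoc, inv_mul_cancel₀ hj0, mul_one]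
    have e2 : ∑ i ∈ Finset.range n, ((ζ ^ j)⁻¹) ^ (i + 1) • (Φ ^ (i + 1)) t = s j := by
      have h3 := Finset.sum_range_succ' (fun i => ((ζ ^ j)⁻¹) ^ i • (Φ ^ i) t) n
      have h4 := Finset.sum_range_succ (fun i => ((ζ ^ j)⁻¹) ^ i • (Φ ^ i) t) n
      rw [h4] at h3
      rw [hjn, hΦ, one_smul] at h3
      simp only [pow_zero, one_smul, Module.End.one_apply] at h3
      exact (add_right_cancel h3).symm
    rw [e1, e2]
  by_contra hcon
  push Not at hcon
  -- all `s j` with `0 < j < n` are zero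
  have hz : ∀ j ∈ Finset.range n, j ≠ 0 → s j = 0 := by
    intro j hj hj0
    by_contra hne0
    have hη1 : ζ ^ j ≠ 1 := hζ.pow_ne_one_of_pos_of_lt hj0 (Finset.mem_range.mp hj)
    have hηn : (ζ ^ j) ^ n = 1 := by rw [← pow_mul, mul_comm, pow_mul, hζ.pow_eq_one, one_pow]
    exact hcon (ζ ^ j) hη1 hηn (s j) (hsU j) hne0 (hseig j)
  have hsum : ∑ j ∈ Finset.range n, s j = s 0 := by
    refine Finset.sum_eq_single_of_mem 0 (Finset.mem_range.mpr (Nat.pos_of_ne_zero hn0)) fun j hj hj0 => hz j hj hj0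
  have hsum2 : ∑ j ∈ Finset.range n, s j = (n : k) • t := by
    rw [hs]
    beta_reduce
    rw [Finset.sum_comm]
    have e1 : ∀ i ∈ Finset.range n, ∑ j ∈ Finset.range n, ((ζ ^ j)⁻¹) ^ i • (Φ ^ i) t =
        if i = 0 then (n : k) • t else 0 := by
      intro i hi
      rw [← Finset.sum_smul]
      split_ifs with h0
      · subst h0
        simp
      · have h1 : ∑ j ∈ Finset.range n, ((ζ ^ j)⁻¹) ^ i = 0 := by
          have h2 : ∀ j ∈ Finset.range n, ((ζ ^ j)⁻¹) ^ i = ((ζ ^ i)⁻¹) ^ j := by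
            intro j _
            rw [inv_pow, inv_pow, ← pow_mul, ← pow_mul, mul_comm]
          rw [Finset.sum_congr rfl h2]
          have h3 : (ζ ^ i)⁻¹ ≠ 1 := by
            rw [ne_eq, inv_eq_one]
            exact hζ.pow_ne_one_of_pos_of_lt h0 (Finset.mem_range.mp hi)
          have h4 : ((ζ ^ i)⁻¹) ^ n = 1 := by
            rw [inv_pow, ← pow_mul, mul_comm, pow_mul, hζ.pow_eq_one, one_pow, inv_one]
          have h5 := mul_neg_geom_sum ((ζ ^ i)⁻¹) n
          rw [h4, sub_self] at h5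
          exact (mul_eq_zero.mp h5).resolve_left (sub_ne_zero.mpr h3.symm)
        rw [h1, zero_smul]
    rw [Finset.sum_congr rfl e1, Finset.sum_ite_eq' (Finset.range n) 0]
    rw [if_pos (Finset.mem_range.mpr (Nat.pos_of_ne_zero hn0))]
  have hfix : Φ (s 0) = s 0 := by
    have := hseig 0
    simpa using this
  rw [← hsum, hsum2, map_smul] at hfix
  exact hne (smul_right_injective W hn hfix)

variable {V : Type*} [AddCommGroup V] [Module k V] [FiniteDimensional k V]

/-- commuting semisimple endomorphisms: their span consists of semisimple endomorphisms -/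
theorem ss_of_span {S : Set (End k V)} (hc : ∀ x ∈ S, ∀ y ∈ S, x * y = y * x) (hs : ∀ x ∈ S, x.IsSemisimple) :
    ∀ x ∈ Submodule.span k S, x.IsSemisimple := by
  have hcomm1 : ∀ x ∈ Submodule.span k S, ∀ y ∈ S, Commute x y := by
    intro x hx y hy
    induction hx using Submodule.span_induction with
    | mem x hx => exact hc x hx y hy
    | zero => exact Commute.zero_left y
    | add a b _ _ ha hb => exact ha.add_left hb
    | smul c a _ ha => exact ha.smul_left c
  have hcomm : ∀ x ∈ Submodule.span k S, ∀ y ∈ Submodule.span k S, Commute x y := by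
    intro x hx y hy
    induction hy using Submodule.span_induction with
    | mem y hy => exact hcomm1 x hx y hy
    | zero => exact Commute.zero_right x
    | add a b _ _ ha hb => exact ha.add_right hb
    | smul c a _ ha => exact ha.smul_right c
  intro x hx
  induction hx using Submodule.span_induction with
  | mem x hx => exact hs x hx
  | zero => exact Module.End.isSemisimple_zero
  | add a b ha hb iha ihb => exact Module.End.IsSemisimple.add_of_commute (hcomm a ha b hb) iha ihb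
  | smul c a _ iha => exact Module.End.IsSemisimple_smul c iha

omit [IsAlgClosed k] [FiniteDimensional k V] in
/-- a finite order element is semisimple -/
theorem ss_of_pow {x : End k V} {n : ℕ} (hn : (n : k) ≠ 0) (hx : x ^ n = 1) : x.IsSemisimple := by
  refine Module.End.isSemisimple_of_squarefree_aeval_eq_zero (p := X ^ n - C (1 : k)) ?_ ?_
  · exact (Polynomial.separable_X_pow_sub_C (1 : k) hn one_ne_zero).squarefree
  · simp [hx]

omit [IsAlgClosed k] in
/-- the stable range of an endomorphism which is not nilpotent -/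
theorem exists_stable {s : End k V} (hs : ¬ IsNilpotent s) : ∃ N : ℕ, LinearMap.range (s ^ N) ≠ ⊥ ∧
    ∀ v ∈ LinearMap.range (s ^ N), v ≠ 0 → ∀ i, (s ^ i) v ≠ 0 := by
  obtain ⟨N, hN⟩ := Filter.eventually_atTop.mp (Module.End.eventually_disjoint_ker_pow_range_pow s)
  refine ⟨N + 1, ?_, ?_⟩
  · intro h
    rw [LinearMap.range_eq_bot] at h
    exact hs ⟨_, h⟩
  · have hd := hN (N + 1) (Nat.le_succ N)
    have key : ∀ v ∈ LinearMap.range (s ^ (N + 1)), v ≠ 0 → s v ∈ LinearMap.range (s ^ (N + 1)) ∧ s v ≠ 0 := by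
      rintro _ ⟨w, rfl⟩ hv
      refine ⟨⟨s w, ?_⟩, fun h0 => hv ?_⟩
      · rw [← Module.End.mul_apply, ← Module.End.mul_apply, ← pow_succ, ← pow_succ']
      · have h1 : (s ^ (N + 1)) w ∈ LinearMap.ker (s ^ (N + 1)) := by
          rw [LinearMap.mem_ker, pow_succ s N, Module.End.mul_apply, ← pow_succ, h0, map_zero]
        have h2 := Submodule.disjoint_def.mp hd _ h1 ⟨w, rfl⟩
        exact h2
    intro v hv hv0 i
    have : (s ^ i) v ∈ LinearMap.range (s ^ (N + 1)) ∧ (s ^ i) v ≠ 0 := by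
      induction i with
      | zero => exact ⟨by simpa using hv, by simpa using hv0⟩
      | succ i ih =>
        rw [pow_succ' s i, Module.End.mul_apply]
        exact key _ ih.1 ih.2
    exact this.2

omit [IsAlgClosed k] [FiniteDimensional k V] in
theorem mul_pow_comm {z s : End k V} {ω : k} (hzs : z * s = ω • (s * z)) (i : ℕ) :
    z * s ^ i = ω ^ i • (s ^ i * z) := by
  induction i with
  | zero => simp
  | succ i ih =>
    rw [pow_succ s, ← mul_assoc, ih, smul_mul_assoc, mul_assoc, hzs, mul_smul_comm, smul_smul, ← mul_assoc,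
      pow_succ]

/-- an invertible `z` with `z s = ω s z`, `s` not nilpotent, has the eigenvalues `c ω ^ i` -/
theorem coset_of_comm {z s : End k V} {ω : k} (hz : IsUnit z) (hzs : z * s = ω • (s * z)) (hs : ¬ IsNilpotent s) :
    ∃ c : k, c ≠ 0 ∧ ∀ i : ℕ, z.HasEigenvalue (c * ω ^ i) := by
  obtain ⟨N, hN, hst⟩ := exists_stable hs
  have hpow : ∀ i, z * s ^ i = ω ^ i • (s ^ i * z) := mul_pow_comm hzs
  have hmaps : ∀ v ∈ LinearMap.range (s ^ N), z v ∈ LinearMap.range (s ^ N) := by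
    rintro _ ⟨w, rfl⟩
    refine ⟨ω ^ N • z w, ?_⟩
    rw [map_smul, ← Module.End.mul_apply, ← Module.End.mul_apply, hpow N, LinearMap.smul_apply]
  have : Nontrivial (LinearMap.range (s ^ N)) := Submodule.nontrivial_iff_ne_bot.mpr hN
  obtain ⟨c, hc⟩ := Module.End.exists_eigenvalue (z.restrict hmaps)
  obtain ⟨v, hv⟩ := hc.exists_hasEigenvector
  have hv1 : z (v : V) = c • (v : V) := by
    have := congrArg Subtype.val hv.apply_eq_smul
    simpa using this
  have hv0 : (v : V) ≠ 0 := fun h => hv.2 (Subtype.ext h)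
  have hinj : Function.Injective z := (Module.End.isUnit_iff z).mp hz |>.1
  refine ⟨c, ?_, fun i => ?_⟩
  · rintro rfl
    rw [zero_smul] at hv1
    exact hv0 (hinj (by rw [hv1, map_zero]))
  · refine Module.End.hasEigenvalue_of_hasEigenvector (x := (s ^ i) (v : V)) ⟨?_, hst v v.2 hv0 i⟩
    rw [Module.End.mem_eigenspace_iff, ← Module.End.mul_apply, hpow i, LinearMap.smul_apply, Module.End.mul_apply, hv1,
      map_smul, smul_smul, mul_comm]

variable {G : Type*} [Group G]

omit [IsAlgClosed k] [FiniteDimensional k V] in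
theorem span_conj (ρ : G →* End k V) {A : Subgroup G} {z : G} (hn : ∀ a ∈ A, z * a * z⁻¹ ∈ A) :
    ∀ u ∈ Submodule.span k (ρ '' (A : Set G)), ρ z * u * ρ z⁻¹ ∈ Submodule.span k (ρ '' (A : Set G)) := by
  intro u hu
  induction hu using Submodule.span_induction with
  | mem x hx =>
    obtain ⟨a, ha, rfl⟩ := hx
    refine Submodule.subset_span ⟨z * a * z⁻¹, hn a ha, ?_⟩
    rw [map_mul, map_mul]
  | zero => rw [mul_zero, zero_mul]; exact Submodule.zero_mem _
  | add a b _ _ ha hb => rw [mul_add, add_mul]; exact Submodule.add_mem _ ha hb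
  | smul c a _ ha => rw [mul_smul_comm, smul_mul_assoc]; exact Submodule.smul_mem _ c ha

theorem span_ss (ρ : G →* End k V) {A : Subgroup G} (hA : ∀ a ∈ A, ∀ b ∈ A, a * b = b * a)
    (hcard : (Nat.card A : k) ≠ 0) : ∀ u ∈ Submodule.span k (ρ '' (A : Set G)), u.IsSemisimple := by
  refine ss_of_span ?_ ?_
  · rintro _ ⟨a, ha, rfl⟩ _ ⟨b, hb, rfl⟩
    rw [← map_mul, ← map_mul, hA a ha b hb]
  · rintro _ ⟨a, ha, rfl⟩
    refine ss_of_pow hcard ?_
    have h1 : (⟨a, ha⟩ : A) ^ Nat.card A = 1 := pow_card_eq_one'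
    have h2 : a ^ Nat.card A = 1 := congrArg Subtype.val h1
    rw [← map_pow, h2, map_one]

/-- **EIG**, algebraically closed case. -/
theorem eig_core (ρ : G →* End k V) {A : Subgroup G} (hA : ∀ a ∈ A, ∀ b ∈ A, a * b = b * a)
    (hcard : (Nat.card A : k) ≠ 0) {r : ℕ} (hr : r.Prime) (hrk : (r : k) ≠ 0) {z : G}
    (hn : ∀ a ∈ A, z * a * z⁻¹ ∈ A) {m : ℕ}
    (hz : ∀ a ∈ A, ρ (z ^ r ^ m) * ρ a = ρ a * ρ (z ^ r ^ m))
    (heig : ∀ c : k, c ≠ 0 → ∃ x : k, x ^ r = 1 ∧ ¬ (ρ z).HasEigenvalue (c * x)) :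
    ∀ a ∈ A, ρ z * ρ a = ρ a * ρ z := by
  intro a ha
  by_contra hne
  have hinv : ρ z⁻¹ * ρ z = 1 := by rw [← map_mul, inv_mul_cancel, map_one]
  have hinv' : ρ z * ρ z⁻¹ = 1 := by rw [← map_mul, mul_inv_cancel, map_one]
  set Φ : End k V →ₗ[k] End k V := (LinearMap.mulRight k (ρ z⁻¹)).comp (LinearMap.mulLeft k (ρ z)) with hΦ
  have hΦa : ∀ u, Φ u = ρ z * u * ρ z⁻¹ := fun u => rfl
  have hΦi : ∀ i u, (Φ ^ i) u = ρ (z ^ i) * u * ρ (z ^ i)⁻¹ := by
    intro i
    induction i with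
    | zero => intro u; simp
    | succ i ih =>
      intro u
      rw [pow_succ' Φ, Module.End.mul_apply, ih, hΦa, pow_succ' z, mul_inv_rev, map_mul, map_mul]
      simp only [mul_assoc]
  obtain ⟨η, hη1, hηn, s, hsU, hs0, hs⟩ := exists_eig_of_ne Φ (Submodule.span k (ρ '' (A : Set G)))
    (fun u hu => span_conj ρ hn u hu) (n := r ^ m) (by push_cast; exact pow_ne_zero _ hrk) (t := ρ a)
    (Submodule.subset_span ⟨a, ha, rfl⟩)
    (by
      rw [hΦi, hz a ha, mul_assoc, ← map_mul, mul_inv_cancel, map_one, mul_one])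
    (by
      intro h
      rw [hΦa] at h
      apply hne
      have h2 := congrArg (· * ρ z) h
      beta_reduce at h2
      rwa [mul_assoc, hinv, mul_one] at h2)
  have hsnil : ¬ IsNilpotent s := fun h =>
    hs0 (Module.End.eq_zero_of_isNilpotent_isSemisimple h (span_ss ρ hA hcard s hsU))
  have hzs : ρ z * s = η • (s * ρ z) := by
    rw [hΦa] at hs
    have h2 := congrArg (· * ρ z) hs
    beta_reduce at h2
    rwa [mul_assoc, hinv, mul_one, smul_mul_assoc] at h2
  obtain ⟨l, -, hl⟩ := (Nat.dvd_prime_pow hr).mp (orderOf_dvd_of_pow_eq_one hηn)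
  have hl0 : l ≠ 0 := by
    rintro rfl
    rw [pow_zero, orderOf_eq_one_iff] at hl
    exact hη1 hl
  obtain ⟨l', rfl⟩ := Nat.exists_eq_succ_of_ne_zero hl0
  have hω : IsPrimitiveRoot (η ^ r ^ l') r := by
    refine (IsPrimitiveRoot.orderOf η).pow (orderOf_pos_iff.mpr ?_) (a := r ^ l') ?_
    · exact isOfFinOrder_iff_pow_eq_one.mpr ⟨r ^ m, pow_pos hr.pos m, hηn⟩
    · rw [hl, pow_succ]
  have hs' : ¬ IsNilpotent (s ^ r ^ l') := by
    rintro ⟨N, hN⟩
    exact hsnil ⟨r ^ l' * N, by rw [pow_mul, hN]⟩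
  obtain ⟨c, hc0, hc⟩ := coset_of_comm (z := ρ z) (s := s ^ r ^ l') (ω := η ^ r ^ l')
    ((Units.map (ρ : G →* End k V) (toUnits z)).isUnit) (mul_pow_comm hzs _) hs'
  obtain ⟨x, hx, hnx⟩ := heig c hc0
  have : NeZero r := ⟨hr.ne_zero⟩
  obtain ⟨i, -, rfl⟩ := hω.eq_pow_of_pow_eq_one hx
  exact hnx (hc i)

end core

section field

variable {K L : Type*} [Field K] [Field L] [IsAlgClosed L] [Algebra K L]

/-- no full coset of `μ_r` among the roots of `f` in `L` -/
def NoCoset (L : Type*) [Field L] [Algebra K L] (r : ℕ) (f : K[X]) : Prop :=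
  ∀ c : L, c ≠ 0 → ∃ x : L, x ^ r = 1 ∧ ¬ (f.map (algebraMap K L)).IsRoot (c * x)

/-- base change of matrices, as endomorphisms -/
noncomputable def bc (K L : Type*) [Field K] [Field L] [Algebra K L] {ι : Type*} [Fintype ι] [DecidableEq ι] :
    Matrix ι ι K →* End L (ι → L) :=
  (MonoidHomClass.toMonoidHom (Matrix.toLinAlgEquiv' : Matrix ι ι L ≃ₐ[L] End L (ι → L))).comp
    (MonoidHomClass.toMonoidHom ((algebraMap K L).mapMatrix : Matrix ι ι K →+* Matrix ι ι L))

omit [IsAlgClosed L] in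
theorem bc_apply {ι : Type*} [Fintype ι] [DecidableEq ι] (M : Matrix ι ι K) :
    bc K L M = Matrix.toLin' (M.map (algebraMap K L)) := rfl

omit [IsAlgClosed L] in
theorem bc_inj {ι : Type*} [Fintype ι] [DecidableEq ι] {M N : Matrix ι ι K} (h : bc K L M = bc K L N) : M = N := by
  rw [bc_apply, bc_apply] at h
  have h1 := Matrix.toLin'.injective h
  exact Matrix.map_injective (algebraMap K L).injective h1

theorem bc_eig {ι : Type*} [Fintype ι] [DecidableEq ι] (M : Matrix ι ι K) (c : L) :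
    (bc K L M).HasEigenvalue c ↔ (M.charpoly.map (algebraMap K L)).IsRoot c := by
  rw [Module.End.hasEigenvalue_iff_isRoot_charpoly, bc_apply, Matrix.charpoly_toLin', Matrix.charpoly_map]

variable {G : Type*} [Group G]

/-- **EIG** for matrices over a field `K`; `L` an algebraically closed extension field. -/
theorem eig_matrix {ι : Type*} [Fintype ι] [DecidableEq ι] (ρ : G →* Matrix ι ι K) {A : Subgroup G}
    (hA : ∀ a ∈ A, ∀ b ∈ A, a * b = b * a) (hcard : (Nat.card A : K) ≠ 0) {r : ℕ} (hr : r.Prime)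
    (hrk : (r : K) ≠ 0) {z : G} (hn : ∀ a ∈ A, z * a * z⁻¹ ∈ A) {m : ℕ}
    (hz : ∀ a ∈ A, ρ (z ^ r ^ m) * ρ a = ρ a * ρ (z ^ r ^ m)) (heig : NoCoset L r (ρ z).charpoly) :
    ∀ a ∈ A, ρ z * ρ a = ρ a * ρ z := by
  intro a ha
  refine bc_inj (L := L) ?_
  rw [map_mul, map_mul]
  refine eig_core ((bc K L).comp ρ) hA ?_ hr ?_ hn (m := m) ?_ ?_ a ha
  · intro h
    apply hcard
    have h1 : algebraMap K L (Nat.card A : K) = 0 := by rw [map_natCast]; exact h
    exact (map_eq_zero _).mp h1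
  · intro h
    apply hrk
    have h1 : algebraMap K L (r : K) = 0 := by rw [map_natCast]; exact h
    exact (map_eq_zero _).mp h1
  · intro b hb
    rw [MonoidHom.comp_apply, MonoidHom.comp_apply, ← map_mul, hz b hb, map_mul]
  · intro c hc
    obtain ⟨x, hx, hx'⟩ := heig c hc
    exact ⟨x, hx, fun h => hx' ((bc_eig _ _).mp h)⟩

/-- **EIG** for endomorphisms of a vector space over a field `K`. -/
theorem eig_end {V : Type*} [AddCommGroup V] [Module K V] [FiniteDimensional K V] (ρ : G →* End K V) {A : Subgroup G}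
    (hA : ∀ a ∈ A, ∀ b ∈ A, a * b = b * a) (hcard : (Nat.card A : K) ≠ 0) {r : ℕ} (hr : r.Prime)
    (hrk : (r : K) ≠ 0) {z : G} (hn : ∀ a ∈ A, z * a * z⁻¹ ∈ A) {m : ℕ}
    (hz : ∀ a ∈ A, ρ (z ^ r ^ m) * ρ a = ρ a * ρ (z ^ r ^ m)) (heig : NoCoset L r (ρ z).charpoly) :
    ∀ a ∈ A, ρ z * ρ a = ρ a * ρ z := by
  classical
  intro a ha
  let b := Module.Free.chooseBasis K V
  let e := LinearMap.toMatrixAlgEquiv b
  refine e.injective ?_
  rw [map_mul, map_mul]
  refine eig_matrix (L := L) ((MonoidHomClass.toMonoidHom e).comp ρ) hA hcard hr hrk hn (m := m) ?_ ?_ a ha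
  · intro b hb
    have := congrArg e (hz b hb)
    rwa [map_mul, map_mul] at this
  · have h1 : (e (ρ z)).charpoly = (ρ z).charpoly := LinearMap.charpoly_toMatrix (ρ z) b
    show NoCoset L r (e (ρ z)).charpoly
    rw [h1]
    exact heig

theorem noCoset_of_finset {r : ℕ} (hr : 0 < r) (hrL : (r : L) ≠ 0) {f : K[X]} (S : Finset L)
    (hS : ∀ x : L, (f.map (algebraMap K L)).IsRoot x → x ∈ S) (hcard : S.card < r) : NoCoset L r f := by
  classical
  intro c hc
  by_contra hcon
  push Not at hcon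
  have : NeZero (r : L) := ⟨hrL⟩
  have : NeZero r := ⟨hr.ne'⟩
  obtain ⟨ω, hω⟩ := HasEnoughRootsOfUnity.exists_primitiveRoot L r
  have h1 : (Finset.range r).image (fun i => c * ω ^ i) ⊆ S := by
    intro y hy
    obtain ⟨i, -, rfl⟩ := Finset.mem_image.mp hy
    refine hS _ (hcon _ ?_)
    rw [← pow_mul, mul_comm, pow_mul, hω.pow_eq_one, one_pow]
  have h2 : ((Finset.range r).image (fun i => c * ω ^ i)).card = r := by
    rw [Finset.card_image_of_injOn, Finset.card_range]
    intro i hi j hj hij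
    exact hω.pow_inj (Finset.mem_range.mp hi) (Finset.mem_range.mp hj) (mul_left_cancel₀ hc hij)
  have h3 := Finset.card_le_card h1
  omega

/-- few roots different from `1` -/
theorem noCoset_of_factor {r : ℕ} (hr : 0 < r) (hrL : (r : L) ≠ 0) {f g : K[X]} {e : ℕ} (hg : g ≠ 0)
    (hf : f = (X - C 1) ^ e * g) (hcard : g.natDegree + 1 < r) : NoCoset L r f := by
  classical
  refine noCoset_of_finset hr hrL (insert 1 (g.map (algebraMap K L)).roots.toFinset) ?_ ?_
  · intro x hx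
    rw [hf, Polynomial.map_mul, Polynomial.IsRoot, Polynomial.eval_mul, mul_eq_zero] at hx
    rw [Finset.mem_insert]
    rcases hx with hx | hx
    · left
      simp only [Polynomial.map_pow, Polynomial.map_sub, Polynomial.map_X, map_one,
        Polynomial.eval_pow, Polynomial.eval_sub, Polynomial.eval_X, Polynomial.map_one, Polynomial.eval_one] at hx
      exact sub_eq_zero.mp ((pow_eq_zero_iff (by rintro rfl; simp at hx)).mp hx)
    · right
      rw [Multiset.mem_toFinset, Polynomial.mem_roots ((Polynomial.map_ne_zero_iff (algebraMap K L).injective).mpr hg)]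
      exact hx
  · refine (Finset.card_insert_le _ _).trans_lt ?_
    have h1 := Multiset.toFinset_card_le (g.map (algebraMap K L)).roots
    have h2 := Polynomial.card_roots' (g.map (algebraMap K L))
    rw [Polynomial.natDegree_map] at h2
    omega

/-- `rank (z - 1) + 1 < r` -/
theorem noCoset_of_rank {V : Type*} [AddCommGroup V] [Module K V] [FiniteDimensional K V] {r : ℕ}
    (hrL : (r : L) ≠ 0) (z : End K V) (hrank : Module.finrank K (LinearMap.range (z - 1)) + 1 < r) :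
    NoCoset L r z.charpoly := by
  have hm : z.charpoly ≠ 0 := z.charpoly_monic.ne_zero
  obtain ⟨g, hg, -⟩ := Polynomial.exists_eq_pow_rootMultiplicity_mul_and_not_dvd z.charpoly hm 1
  have hg0 : g ≠ 0 := by
    rintro rfl
    rw [mul_zero] at hg
    exact hm hg
  refine noCoset_of_factor (by omega) hrL hg0 hg ?_
  have h1 : Module.finrank K (z.eigenspace 1) ≤ z.charpoly.rootMultiplicity 1 := LinearMap.finrank_eigenspace_le z 1
  have h2 : Module.finrank K (LinearMap.range (z - 1)) + Module.finrank K (LinearMap.ker (z - 1)) =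
      Module.finrank K V := LinearMap.finrank_range_add_finrank_ker (z - 1)
  have h3 : z.eigenspace 1 = LinearMap.ker (z - 1) := by
    rw [Module.End.eigenspace_def, one_smul]
  have h4 := congrArg Polynomial.natDegree hg
  rw [LinearMap.charpoly_natDegree, Polynomial.natDegree_mul (pow_ne_zero _ (Polynomial.X_sub_C_ne_zero 1)) hg0,
    Polynomial.natDegree_pow, Polynomial.natDegree_X_sub_C, mul_one] at h4
  rw [h3] at h1
  omega

omit [IsAlgClosed L] in
/-- `r = 2`, eigenvalues `1, l, l⁻¹` with `l ^ 4 ≠ 1` -/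
theorem noCoset_two {f : K[X]} {l : L} (hl : l ^ 4 ≠ 1) (h2 : (2 : L) ≠ 0)
    (hf : ∀ x : L, (f.map (algebraMap K L)).IsRoot x → x = 1 ∨ x = l ∨ x = l⁻¹) : NoCoset L 2 f := by
  intro c hc
  by_contra hcon
  push Not at hcon
  have ha := hf _ (hcon 1 (one_pow 2))
  have hb := hf _ (hcon (-1) (by norm_num))
  rw [mul_one] at ha
  rw [mul_neg, mul_one] at hb
  have hl0 : l ≠ 0 := by
    rintro rfl
    rcases ha with ha | ha | ha
    · rcases hb with hb | hb | hb
      · rw [ha] at hb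
        apply h2
        linear_combination -hb
      · rw [ha] at hb
        exact one_ne_zero (neg_eq_zero.mp hb)
      · rw [ha, inv_zero] at hb
        exact one_ne_zero (neg_eq_zero.mp hb)
    · exact hc ha
    · exact hc (by rw [ha, inv_zero])
  have hll : l * l⁻¹ = 1 := mul_inv_cancel₀ hl0
  have hnn : ∀ x : L, x ≠ 0 → x ≠ -x := fun x hx h => h2 (by
    have h3 : 2 * x = 0 := by linear_combination h
    exact (mul_eq_zero.mp h3).resolve_right hx)
  rcases ha with ha | ha | ha <;> rcases hb with hb | hb | hb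
  · rw [ha] at hb; exact hnn 1 one_ne_zero hb.symm
  · rw [ha] at hb; apply hl; rw [← hb]; norm_num
  · rw [ha] at hb; apply hl
    have h3 : l = -1 := by
      have := congrArg (· * l) hb
      beta_reduce at this
      rw [mul_comm l⁻¹, hll] at this
      linear_combination -this
    rw [h3]; norm_num
  · rw [ha] at hb; apply hl
    have h3 : l = -1 := by linear_combination -hb
    rw [h3]; norm_num
  · rw [ha] at hb; exact hnn l hl0 hb.symm
  · rw [ha] at hb; apply hl
    have h3 : l ^ 2 = -1 := by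
      have := congrArg (· * l) hb
      beta_reduce at this
      rw [mul_comm l⁻¹, hll] at this
      linear_combination -this
    have h4 : l ^ 4 = (l ^ 2) ^ 2 := by ring
    rw [h4, h3]; norm_num
  · rw [ha] at hb; apply hl
    have h3 : l = -1 := by
      have := congrArg (· * l) hb
      beta_reduce at this
      rw [neg_mul, mul_comm l⁻¹, hll] at this
      linear_combination -this
    rw [h3]; norm_num
  · rw [ha] at hb; apply hl
    have h3 : l ^ 2 = -1 := by
      have := congrArg (· * l) hb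
      beta_reduce at this
      rw [neg_mul, mul_comm l⁻¹, hll] at this
      linear_combination -this
    have h4 : l ^ 4 = (l ^ 2) ^ 2 := by ring
    rw [h4, h3]; norm_num
  · rw [ha] at hb; exact hnn l⁻¹ (inv_ne_zero hl0) hb.symm

/-- `r = 3`, eigenvalues `1, l, l⁻¹` with `l ^ 3 ≠ 1` -/
theorem noCoset_three {f : K[X]} {l : L} (hl : l ^ 3 ≠ 1) (h3 : (3 : L) ≠ 0)
    (hf : ∀ x : L, (f.map (algebraMap K L)).IsRoot x → x = 1 ∨ x = l ∨ x = l⁻¹) : NoCoset L 3 f := by
  classical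
  intro c hc
  by_contra hcon
  push Not at hcon
  have : NeZero (((3 : ℕ)) : L) := ⟨by exact_mod_cast h3⟩
  have : NeZero (3 : ℕ) := ⟨by norm_num⟩
  obtain ⟨ω, hω⟩ := HasEnoughRootsOfUnity.exists_primitiveRoot L 3
  have hω3 : ω ^ 3 = 1 := hω.pow_eq_one
  -- the coset equals `{1, l, l⁻¹}`
  have h1 : (Finset.range 3).image (fun i => c * ω ^ i) ⊆ ({1, l, l⁻¹} : Finset L) := by
    intro y hy
    obtain ⟨i, -, rfl⟩ := Finset.mem_image.mp hy
    have := hf _ (hcon _ (show (ω ^ i) ^ 3 = 1 by rw [← pow_mul, mul_comm, pow_mul, hω3, one_pow]))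
    simpa using this
  have h2 : ((Finset.range 3).image (fun i => c * ω ^ i)).card = 3 := by
    rw [Finset.card_image_of_injOn, Finset.card_range]
    intro i hi j hj hij
    exact hω.pow_inj (Finset.mem_range.mp hi) (Finset.mem_range.mp hj) (mul_left_cancel₀ hc hij)
  have h4 : (Finset.range 3).image (fun i => c * ω ^ i) = ({1, l, l⁻¹} : Finset L) :=
    Finset.eq_of_subset_of_card_le h1 (by rw [h2]; exact Finset.card_le_three)
  have h5 : ∀ y ∈ ({1, l, l⁻¹} : Finset L), y ^ 3 = c ^ 3 := by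
    intro y hy
    rw [← h4] at hy
    obtain ⟨i, -, rfl⟩ := Finset.mem_image.mp hy
    rw [mul_pow, ← pow_mul, mul_comm i 3, pow_mul, hω3, one_pow, mul_one]
  have h6 := h5 1 (by simp)
  have h7 := h5 l (by simp)
  rw [one_pow] at h6
  rw [← h6] at h7
  exact hl h7

end field

section weights

variable {k : Type*} [Field k] [IsAlgClosed k] {B : Type*} [CommGroup B] [Finite B]

/-- the (unnormalised) projection onto a weight space -/
noncomputable def pj {W : Type*} [AddCommGroup W] [Module k W] (τ : B →* End k W) (χ : B →* kˣ) : End k W :=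
  letI := Fintype.ofFinite B
  ∑ b : B, ((χ b)⁻¹ : kˣ) • τ b

variable {W : Type*} [AddCommGroup W] [Module k W]

omit [IsAlgClosed k] in
theorem act_pj (τ : B →* End k W) (χ : B →* kˣ) (b : B) (w : W) : τ b (pj τ χ w) = χ b • pj τ χ w := by
  let := Fintype.ofFinite B
  have h1 : ∀ b' : B, τ b * (((χ b')⁻¹ : kˣ) • τ b') = χ b • (((χ (b * b'))⁻¹ : kˣ) • τ (b * b')) := by
    intro b'
    rw [mul_smul_comm, ← map_mul, smul_smul]
    congr 1
    rw [map_mul, mul_inv, ← mul_assoc, mul_inv_cancel, one_mul]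
  have h2 : τ b * pj τ χ = χ b • pj τ χ := by
    rw [pj, Finset.mul_sum, Finset.sum_congr rfl fun b' _ => h1 b', ← Finset.smul_sum]
    congr 1
    exact Fintype.sum_equiv (Equiv.mulLeft b) _ _ fun b' => rfl
  have h3 := congrArg (fun f : End k W => f w) h2
  exact h3

omit [IsAlgClosed k] in
theorem pj_mem (τ : B →* End k W) (χ : B →* kˣ) (U : Submodule k W) (hU : ∀ b, ∀ u ∈ U, τ b u ∈ U) {w : W}
    (hw : w ∈ U) : pj τ χ w ∈ U := by
  rw [pj, LinearMap.sum_apply]
  exact U.sum_mem fun b _ => U.smul_mem _ (hU b w hw)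

/-- orthogonality: the sum of all `pj τ χ` is `|B|` -/
theorem sum_pj (hB : (Nat.card B : k) ≠ 0) [Fintype (B →* kˣ)] (τ : B →* End k W) (w : W) :
    ∑ χ : B →* kˣ, pj τ χ w = (Nat.card B : k) • w := by
  classical
  let := Fintype.ofFinite B
  have hexp : (Monoid.exponent B : k) ≠ 0 := by
    intro h
    obtain ⟨c, hc⟩ := Group.exponent_dvd_nat_card (G := B)
    apply hB
    rw [hc, Nat.cast_mul, h, zero_mul]
  have : NeZero (Monoid.exponent B : k) := ⟨hexp⟩
  have h0 : ∀ b : B, b ≠ 1 → ∑ χ : B →* kˣ, (((χ b)⁻¹ : kˣ) : k) = 0 := by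
    intro b hb
    obtain ⟨φ, hφ⟩ := CommGroup.exists_apply_ne_one_of_hasEnoughRootsOfUnity B k hb
    have h1 : (((φ b)⁻¹ : kˣ) : k) * ∑ χ : B →* kˣ, (((χ b)⁻¹ : kˣ) : k) = ∑ χ : B →* kˣ, (((χ b)⁻¹ : kˣ) : k) := by
      rw [Finset.mul_sum]
      refine Fintype.sum_equiv (Equiv.mulLeft φ) _ _ fun χ => ?_
      simp [mul_comm]
    have h2 : ((((φ b)⁻¹ : kˣ) : k) - 1) * ∑ χ : B →* kˣ, (((χ b)⁻¹ : kˣ) : k) = 0 := by
      rw [sub_mul, h1, one_mul, sub_self]
    refine (mul_eq_zero.mp h2).resolve_left ?_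
    intro h3
    apply hφ
    have h4 : (((φ b)⁻¹ : kˣ) : k) = ((1 : kˣ) : k) := by rw [Units.val_one]; exact sub_eq_zero.mp h3
    exact inv_eq_one.mp (Units.ext h4)
  have e1 : ∑ χ : B →* kˣ, pj τ χ w = ∑ b : B, (∑ χ : B →* kˣ, (((χ b)⁻¹ : kˣ) : k)) • τ b w := by
    simp only [pj, LinearMap.sum_apply, Finset.sum_smul]
    rw [Finset.sum_comm]
    rfl
  rw [e1, Finset.sum_eq_single (1 : B)]
  · rw [map_one, Module.End.one_apply]
    congr 1
    simp only [map_one, inv_one, Units.val_one, Finset.sum_const, Finset.card_univ, nsmul_eq_mul, mul_one]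
    rw [← Nat.card_eq_fintype_card, CommGroup.card_monoidHom_of_hasEnoughRootsOfUnity]
  · intro b _ hb
    rw [h0 b hb, zero_smul]
  · intro h
    exact absurd (Finset.mem_univ _) h

/-- every nonzero vector has a nonzero weight component -/
theorem exists_pj_ne (hB : (Nat.card B : k) ≠ 0) (τ : B →* End k W) {w : W} (hw : w ≠ 0) :
    ∃ χ : B →* kˣ, pj τ χ w ≠ 0 := by
  classical
  let := Fintype.ofFinite (B →* kˣ)
  by_contra hcon
  push Not at hcon
  have h1 := sum_pj hB τ w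
  rw [Finset.sum_eq_zero fun χ _ => hcon χ] at h1
  exact (smul_ne_zero hB hw) h1.symm

/-- a vector which is not fixed has a nontrivial weight component -/
theorem exists_pj_ne_one (hB : (Nat.card B : k) ≠ 0) (τ : B →* End k W) {w : W} {b : B} (hw : τ b w ≠ w) :
    ∃ χ : B →* kˣ, χ ≠ 1 ∧ pj τ χ w ≠ 0 := by
  classical
  let := Fintype.ofFinite (B →* kˣ)
  by_contra hcon
  push Not at hcon
  have h1 := sum_pj hB τ w
  rw [Finset.sum_eq_single_of_mem (1 : B →* kˣ) (Finset.mem_univ _) fun χ _ hχ => hcon χ hχ] at h1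
  have h2 := act_pj τ (1 : B →* kˣ) b w
  rw [MonoidHom.one_apply, one_smul, h1, map_smul] at h2
  exact hw (smul_right_injective W hB h2)

/-- conjugation action on the endomorphisms -/
noncomputable def cj {V : Type*} [AddCommGroup V] [Module k V] (τ : B →* End k V) : B →* End k (End k V) where
  toFun b := (LinearMap.mulRight k (τ b⁻¹)).comp (LinearMap.mulLeft k (τ b))
  map_one' := by
    ext u : 1
    simp
  map_mul' b c := by
    ext u : 1
    simp [mul_assoc]

omit [IsAlgClosed k] [Finite B] in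
theorem cj_apply {V : Type*} [AddCommGroup V] [Module k V] (τ : B →* End k V) (b : B) (u : End k V) :
    cj τ b u = τ b * u * τ b⁻¹ := rfl

/-- **EIG, B-version**, core: `B` a finite commutative group of order `≠ 0` in `k` which acts on `V` and stabilises by
conjugation a subspace `U` of semisimple endomorphisms. If `B` does not centralise `U` then `V` has the weights
`χ ψ ^ i` for some `ψ` of prime order. -/
theorem eigB_core {V : Type*} [AddCommGroup V] [Module k V] [FiniteDimensional k V] (hB : (Nat.card B : k) ≠ 0)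
    (τ : B →* End k V) (U : Submodule k (End k V)) (hUs : ∀ u ∈ U, u.IsSemisimple)
    (hU : ∀ b, ∀ u ∈ U, τ b * u * τ b⁻¹ ∈ U) {t : End k V} (ht : t ∈ U) {b : B} (hne : τ b * t ≠ t * τ b) :
    ∃ p : ℕ, p.Prime ∧ p ∣ Nat.card B ∧ ∃ χ ψ : B →* kˣ, orderOf ψ = p ∧
      ∀ i : ℕ, ∃ v : V, v ≠ 0 ∧ ∀ b, τ b v = (χ b * ψ b ^ i) • v := by
  have hinv : ∀ b, τ b⁻¹ * τ b = 1 := fun b => by rw [← map_mul, inv_mul_cancel, map_one]
  obtain ⟨ψ₀, hψ₀, hs0⟩ := exists_pj_ne_one hB (cj τ) (w := t) (b := b) (by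
    intro h
    rw [cj_apply] at h
    apply hne
    have h2 := congrArg (· * τ b) h
    beta_reduce at h2
    rwa [mul_assoc, hinv, mul_one] at h2)
  set s := pj (cj τ) ψ₀ t with hs
  have hsU : s ∈ U := pj_mem (cj τ) ψ₀ U hU ht
  have hsc : ∀ b, τ b * s = ((ψ₀ b : kˣ) : k) • (s * τ b) := by
    intro b
    have h1 : cj τ b s = ψ₀ b • s := act_pj (cj τ) ψ₀ b t
    rw [cj_apply] at h1
    have h2 := congrArg (· * τ b) h1
    beta_reduce at h2
    rwa [mul_assoc, hinv, mul_one, smul_mul_assoc] at h2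
  have hsnil : ¬ IsNilpotent s := fun h => hs0 (Module.End.eq_zero_of_isNilpotent_isSemisimple h (hUs s hsU))
  have hfin : ψ₀ ^ Nat.card B = 1 := by
    ext b
    rw [MonoidHom.pow_apply, ← map_pow, pow_card_eq_one', map_one, MonoidHom.one_apply]
  have hn1 : orderOf ψ₀ ≠ 1 := fun h => hψ₀ (orderOf_eq_one_iff.mp h)
  have hp := Nat.minFac_prime hn1
  obtain ⟨n', hn'⟩ := Nat.minFac_dvd (orderOf ψ₀)
  have hn0 : 0 < orderOf ψ₀ := orderOf_pos_iff.mpr
    (isOfFinOrder_iff_pow_eq_one.mpr ⟨Nat.card B, Nat.card_pos, hfin⟩)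
  have hn'0 : n' ≠ 0 := by
    rintro rfl
    rw [mul_zero] at hn'
    omega
  refine ⟨(orderOf ψ₀).minFac, hp, (Nat.minFac_dvd _).trans (orderOf_dvd_of_pow_eq_one hfin), ?_⟩
  have hψ : orderOf (ψ₀ ^ n') = (orderOf ψ₀).minFac := by
    rw [orderOf_pow_of_dvd hn'0 ⟨_, (hn'.trans (mul_comm _ _))⟩]
    exact Nat.div_eq_of_eq_mul_left (Nat.pos_of_ne_zero hn'0) hn'
  have hs' : ¬ IsNilpotent (s ^ n') := by
    rintro ⟨N, hN⟩
    exact hsnil ⟨n' * N, by rw [pow_mul, hN]⟩
  have hsc' : ∀ b, τ b * s ^ n' = ((((ψ₀ ^ n') b : kˣ)) : k) • (s ^ n' * τ b) := by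
    intro b
    rw [mul_pow_comm (hsc b) n', MonoidHom.pow_apply, Units.val_pow_eq_pow_val]
  obtain ⟨N, hN, hst⟩ := exists_stable hs'
  obtain ⟨v, hv, hv0⟩ := Submodule.exists_mem_ne_zero_of_ne_bot hN
  obtain ⟨χ, hχ⟩ := exists_pj_ne hB τ hv0
  have hmaps : ∀ b, ∀ v ∈ LinearMap.range ((s ^ n') ^ N), τ b v ∈ LinearMap.range ((s ^ n') ^ N) := by
    rintro b _ ⟨w, rfl⟩
    refine ⟨((((ψ₀ ^ n') b : kˣ)) : k) ^ N • τ b w, ?_⟩
    rw [map_smul, ← Module.End.mul_apply, ← Module.End.mul_apply, mul_pow_comm (hsc' b) N, LinearMap.smul_apply]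
  have hmem := pj_mem τ χ (LinearMap.range ((s ^ n') ^ N)) hmaps hv
  refine ⟨χ, ψ₀ ^ n', hψ, fun i => ⟨((s ^ n') ^ i) (pj τ χ v), hst _ hmem hχ i, fun b => ?_⟩⟩
  rw [← Module.End.mul_apply, mul_pow_comm (hsc' b) i, LinearMap.smul_apply, Module.End.mul_apply, act_pj τ χ b v,
    LinearMap.map_smul_of_tower, mul_smul, ← Units.val_pow_eq_pow_val]
  rw [smul_comm (χ b)]
  rfl

end weights

section subgroups

variable {G : Type*} [Group G]

/-- a commutative subgroup as a `CommGroup` -/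
@[reducible] def cgrp {B : Subgroup G} (hB : ∀ x ∈ B, ∀ y ∈ B, x * y = y * x) : CommGroup B :=
  { (inferInstance : Group B) with mul_comm := fun x y => Subtype.ext (hB x x.2 y y.2) }

/-- **EIG, B-version**, algebraically closed field: `A`, `B` commutative subgroups, `B` an `r`-group which normalises `A`.
If there are no weights `χ, χ ψ, .., χ ψ^(r-1)` of `B` on `V` with `ψ` of order `r` then `B` centralises `ρ A`. -/
theorem eigB {k : Type*} [Field k] [IsAlgClosed k] {V : Type*} [AddCommGroup V] [Module k V] [FiniteDimensional k V]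
    (ρ : G →* End k V) {A B : Subgroup G}
    (hA : ∀ a ∈ A, ∀ b ∈ A, a * b = b * a) (hcard : (Nat.card A : k) ≠ 0) [Finite B]
    (hB : ∀ a ∈ B, ∀ b ∈ B, a * b = b * a) {r : ℕ} (hrB : ∀ p : ℕ, p.Prime → p ∣ Nat.card B → p = r)
    (hcardB : (Nat.card B : k) ≠ 0) (hn : ∀ b ∈ B, ∀ a ∈ A, b * a * b⁻¹ ∈ A)
    (hw : ∀ χ ψ : B →* kˣ, ψ ≠ 1 → ψ ^ r = 1 → ∃ i : ℕ, ∀ v : V, (∀ b : B, ρ b v = (χ b * ψ b ^ i) • v) → v = 0) :
    ∀ b ∈ B, ∀ a ∈ A, ρ b * ρ a = ρ a * ρ b := by
  intro b hb a ha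
  by_contra hne
  let := cgrp hB
  obtain ⟨p, hp, hpB, χ, ψ, hψ, hv⟩ := eigB_core hcardB (ρ.comp B.subtype) (Submodule.span k (ρ '' (A : Set G)))
    (span_ss ρ hA hcard) (fun c u hu => span_conj ρ (hn c c.2) u hu) (t := ρ a) (Submodule.subset_span ⟨a, ha, rfl⟩)
    (b := ⟨b, hb⟩) hne
  have hpr := hrB p hp hpB
  subst hpr
  obtain ⟨i, hi⟩ := hw χ ψ (by
    rintro rfl
    rw [orderOf_one] at hψ
    exact hp.one_lt.ne hψ) (by rw [← hψ]; exact pow_orderOf_eq_one ψ)
  obtain ⟨v, hv0, hv1⟩ := hv i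
  exact hv0 (hi v hv1)

/-- **EIG, B-version**, matrices over a field `K`, weights over an algebraically closed extension `L`. -/
theorem eigB_matrix {K L : Type*} [Field K] [Field L] [IsAlgClosed L] [Algebra K L] {ι : Type*} [Fintype ι]
    [DecidableEq ι] (ρ : G →* Matrix ι ι K) {A B : Subgroup G}
    (hA : ∀ a ∈ A, ∀ b ∈ A, a * b = b * a) (hcard : (Nat.card A : K) ≠ 0) [Finite B]
    (hB : ∀ a ∈ B, ∀ b ∈ B, a * b = b * a) {r : ℕ} (hrB : ∀ p : ℕ, p.Prime → p ∣ Nat.card B → p = r)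
    (hcardB : (Nat.card B : K) ≠ 0) (hn : ∀ b ∈ B, ∀ a ∈ A, b * a * b⁻¹ ∈ A)
    (hw : ∀ χ ψ : B →* Lˣ, ψ ≠ 1 → ψ ^ r = 1 → ∃ i : ℕ, ∀ v : ι → L,
      (∀ b : B, ((ρ b).map (algebraMap K L)).mulVec v = ((χ b * ψ b ^ i : Lˣ) : L) • v) → v = 0) :
    ∀ b ∈ B, ∀ a ∈ A, ρ b * ρ a = ρ a * ρ b := by
  intro b hb a ha
  have hcast : ∀ n : ℕ, (n : K) ≠ 0 → (n : L) ≠ 0 := by
    intro n hn0 h
    apply hn0
    have h1 : algebraMap K L (n : K) = 0 := by rw [map_natCast]; exact h
    exact (map_eq_zero _).mp h1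
  refine bc_inj (L := L) ?_
  rw [map_mul, map_mul]
  refine eigB ((bc K L).comp ρ) hA (hcast _ hcard) hB hrB (hcast _ hcardB) hn ?_ b hb a ha
  intro χ ψ hψ hψr
  obtain ⟨i, hi⟩ := hw χ ψ hψ hψr
  exact ⟨i, fun v hv => hi v fun b => hv b⟩

/-- if a commutative group `B` acts on `T` without nonzero vectors of nontrivial weight then the action is trivial -/
theorem fixed_of_weights {k : Type*} [Field k] [IsAlgClosed k] {B : Type*} [CommGroup B] [Finite B]
    {W : Type*} [AddCommGroup W] [Module k W] (hB : (Nat.card B : k) ≠ 0) (τ : B →* End k W) (T : Submodule k W)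
    (hT : ∀ b, ∀ t ∈ T, τ b t ∈ T) (h : ∀ χ : B →* kˣ, χ ≠ 1 → ∀ v ∈ T, (∀ b, τ b v = χ b • v) → v = 0) :
    ∀ b, ∀ t ∈ T, τ b t = t := by
  intro b t ht
  by_contra hne
  obtain ⟨χ, hχ, hne'⟩ := exists_pj_ne_one hB τ hne
  exact hne' (h χ hχ _ (pj_mem τ χ T hT ht) fun b => act_pj τ χ b t)

/-- if `z` normalises the commutative group `A` but does not centralise `ρ A`, then it moves a weight of `A` -/
theorem exists_moved {k : Type*} [Field k] [IsAlgClosed k] {V : Type*} [AddCommGroup V] [Module k V]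
    (ρ : G →* End k V) {A : Subgroup G} [Finite A]
    (hA : ∀ a ∈ A, ∀ b ∈ A, a * b = b * a) (hcard : (Nat.card A : k) ≠ 0) {z : G} {a : G} (ha : a ∈ A)
    (hn : ∀ a ∈ A, z⁻¹ * a * z ∈ A) (hne : ρ z * ρ a ≠ ρ a * ρ z) :
    ∃ (θ : G → k) (v : V), v ≠ 0 ∧ (∀ a ∈ A, ρ a v = θ a • v) ∧
      (∀ a ∈ A, ρ a (ρ z v) = θ (z⁻¹ * a * z) • ρ z v) ∧ ∃ a ∈ A, θ (z⁻¹ * a * z) ≠ θ a := by
  classical
  let := cgrp hA
  let := Fintype.ofFinite (A →* kˣ)
  by_contra hcon
  push Not at hcon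
  apply hne
  have hmul : ∀ x y : G, ∀ w, ρ (x * y) w = ρ x (ρ y w) := fun x y w => by rw [map_mul, Module.End.mul_apply]
  -- on every weight vector `z` commutes with `a`
  have key : ∀ (χ : A →* kˣ) (w : V), (ρ z * ρ a) (pj (ρ.comp A.subtype) χ w) =
      (ρ a * ρ z) (pj (ρ.comp A.subtype) χ w) := by
    intro χ w
    set v := pj (ρ.comp A.subtype) χ w with hv
    by_cases hv0 : v = 0
    · rw [hv0, map_zero, map_zero]
    · have hχ : ∀ x : A, ρ (x : G) v = χ x • v := fun x => act_pj (ρ.comp A.subtype) χ x w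
      set θ : G → k := fun x => if hx : x ∈ A then ((χ ⟨x, hx⟩ : kˣ) : k) else 0 with hθ
      have hθa : ∀ x (hx : x ∈ A), θ x = ((χ ⟨x, hx⟩ : kˣ) : k) := fun x hx => by
        rw [hθ]; beta_reduce; rw [dif_pos hx]
      have h1 : ∀ x ∈ A, ρ x v = θ x • v := by
        intro x hx
        rw [hθa x hx]
        exact hχ ⟨x, hx⟩
      have h2 : ∀ x ∈ A, ρ x (ρ z v) = θ (z⁻¹ * x * z) • ρ z v := by
        intro x hx
        have e1 : x * z = z * (z⁻¹ * x * z) := by group
        rw [← hmul, e1, hmul, h1 _ (hn x hx), map_smul]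
      have h3 := hcon θ v hv0 h1 h2 a ha
      rw [Module.End.mul_apply, Module.End.mul_apply, h1 a ha, h2 a ha, h3, map_smul]
  refine LinearMap.ext fun w => ?_
  have h1 := sum_pj hcard (ρ.comp A.subtype) w
  have h2 : (Nat.card A : k) • (ρ z * ρ a) w = (Nat.card A : k) • (ρ a * ρ z) w := by
    rw [← map_smul, ← map_smul, ← h1, map_sum, map_sum]
    exact Finset.sum_congr rfl fun χ _ => key χ w
  exact smul_right_injective V hcard h2

end subgroups

end Cfsg.Agent.H750.RM
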